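import Cfsg.Agent.H316.HT.Defs
import Cfsg.Agent.H493.RatB.WitS

/-!
# S4933: the row of a group without outer automorphisms (helper505)

`row_of_inner` : all automorphisms of `S` are inner, for every `p`-modular ideal there is `χ` in the principal block with
`vd p χ = 1`: `Row p S`.
-/

set_option autoImplicit false

open Subgroup

namespace Cfsg.Agent.H505.HT

open Cfsg Cfsg.Agent.H316.HT Cfsg.Agent.Characters.Core

universe u v

/-- a nonlinear irreducible character is not constant -/
theorem exists_ne {G : Type u} [Group G] [Finite G] {χ : G → ℂ} (hχ : IsIrrCharacter G χ) (hd : charDegree χ ≠ 1) :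
    ∃ g, χ g ≠ χ 1 := by
  classical
  by_contra hcon
  push Not at hcon
  have := Fintype.ofFinite G
  have h1 := classInner_irr_self hχ
  have h2 := Blocks.Basic.irr_one_eq_charDegree hχ
  have h3 : χ = fun _ => (charDegree χ : ℂ) := funext fun g => by rw [hcon g, h2]
  have hc : (Nat.card G : ℂ) ≠ 0 := by exact_mod_cast (Nat.card_pos (α := G)).ne'
  have h4 : classInner χ χ = (charDegree χ : ℂ) * (charDegree χ : ℂ) := by
    conv_lhs => rw [h3]
    rw [classInner_def]
    simp only [Complex.conj_natCast, Finset.sum_const, Finset.card_univ, nsmul_eq_mul]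
    rw [← Nat.card_eq_fintype_card]
    field_simp
  rw [h4] at h1
  have h5 : charDegree χ * charDegree χ = 1 := by exact_mod_cast h1
  exact hd (Nat.eq_one_of_mul_eq_one_right h5)

/-- transport of the character -/
theorem exists_comp {p k : ℕ} {S : Type u} [Group S] [Finite S] {T : Type v} [Group T] (e : S ≃* T) {M : Ideal AlgInt}
    (h : ∃ χ : IrrCharacter T, χ ∈ principalBlock M T ∧ vd p (χ : T → ℂ) = k) :
    ∃ χ : IrrCharacter S, χ ∈ principalBlock M S ∧ vd p (χ : S → ℂ) = k := by
  obtain ⟨χ, h1, h2⟩ := h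
  have hdeg : charDegree (fun x : S => (χ : T → ℂ) (e x)) = charDegree (χ : T → ℂ) := by
    rw [Blocks.Basic.charDegree_def, Blocks.Basic.charDegree_def, map_one]
  refine ⟨_, H493.RatB.mem_principalBlock_comp e h1, ?_⟩
  rw [← h2]
  exact congrArg (fun n : ℕ => n.factorization p) hdeg

/-- **the row of a group without outer automorphisms** -/
theorem row_of_inner {p : ℕ} {S : Type v} [Group S] (hin : ∀ α : S ≃* S, ∃ s : S, ∀ x : S, α x = s * x * s⁻¹)
    (h : ∀ M : Ideal AlgInt, IsPModular p M → ∃ χ : IrrCharacter S, χ ∈ principalBlock M S ∧ vd p (χ : S → ℂ) = 1) :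
    Row p S := by
  intro A _ _ N _ hN hC M hM P a ha _hcd
  obtain ⟨e⟩ := hN
  have htop : N = ⊤ := by
    rw [eq_top_iff]
    rintro g -
    obtain ⟨s, hs⟩ := hin ((e.symm.trans (MulAut.conjNormal g)).trans e)
    have h1 : ∀ x : N, g * x * g⁻¹ = (e.symm s : A) * x * (e.symm s : A)⁻¹ := by
      intro x
      have h2 := hs (e x)
      have h3 : e (MulAut.conjNormal g x) = s * e x * s⁻¹ := by
        have h4 : ((e.symm.trans (MulAut.conjNormal g)).trans e) (e x) = e (MulAut.conjNormal g x) := by
          show e (MulAut.conjNormal g (e.symm (e x))) = _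
          rw [MulEquiv.symm_apply_apply]
        rw [← h4, h2]
      have h5 : MulAut.conjNormal g x = e.symm s * x * (e.symm s)⁻¹ := by
        apply e.injective
        rw [h3, map_mul, map_mul, map_inv, MulEquiv.apply_symm_apply]
      have h6 := congrArg (fun y : N => (y : A)) h5
      rw [MulAut.conjNormal_apply] at h6
      exact h6
    have h7 : (e.symm s : A)⁻¹ * g ∈ centralizer (N : Set A) := by
      rw [mem_centralizer_iff]
      intro x hx
      have h8 := h1 ⟨x, hx⟩
      have h8' : g * x * g⁻¹ = (e.symm s : A) * x * (e.symm s : A)⁻¹ := h8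
      have h9 : (e.symm s : A)⁻¹ * g * x = x * ((e.symm s : A)⁻¹ * g) := by
        have e1 : (e.symm s : A)⁻¹ * g * x = (e.symm s : A)⁻¹ * (g * x * g⁻¹) * g := by group
        rw [e1, h8']
        group
      exact h9.symm
    rw [hC, Subgroup.mem_bot, inv_mul_eq_one] at h7
    rw [← h7]
    exact (e.symm s).2
  subst htop
  obtain ⟨χ, h1, h2⟩ := exists_comp (Subgroup.topEquiv.symm.trans e) (h M hM)
  refine ⟨χ, h1, ?_, by rw [h2]; norm_num, by rw [h2]; exact ha⟩
  have hd : charDegree (χ : A → ℂ) ≠ 1 := by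
    intro h3
    unfold vd at h2
    rw [h3, Nat.factorization_one] at h2
    exact absurd h2 (by simp)
  obtain ⟨g, hg⟩ := exists_ne χ.2 hd
  exact ⟨g, Subgroup.mem_top g, hg⟩

end Cfsg.Agent.H505.HT
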